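import Groth.Agent.CycB.DimIneq
import Groth.Agent.CycB.SpCore
import Groth.Agent.Ega4fib.H113.DimFibre
import Groth.Agent.Ega4fib.H174.EquidimCrit

/-!
# Points at which the fibre has dimension zero, and generic points of components

* `eq_of_specializes_of_dim_zero`: `dim O_{X_y,z} = 0` iff `z` is maximal in its fibre;
* `exists_fibreDimAt_eq`: then the local dimension of the fibre at `z` is `rtd f z`;
* `exists_generic_dim`: some component through `z` has dimension `dim O_{X,z}` at `z`;
* `ringKrullDim_locQuot_generic`, `ringKrullDim_locQuot_add_one_le`: dimension of `O_{Y,y}/𝔭_ξ` for `Y`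
  irreducible, `ξ` the generic point, respectively any other point.
-/

set_option autoImplicit false
universe u

open AlgebraicGeometry CategoryTheory TopologicalSpace

namespace Groth.Agent.Ega4fib.H114.GenComp

open Groth.Agent.CycB Groth.Agent.CycB.RelDim Groth.Agent.CycB.LocQuot Groth.Agent.Ega4fib.H113

variable {X Y : Scheme.{u}}

/-- A point at which the local ring of the fibre has dimension `0` is maximal in its fibre. -/
theorem eq_of_specializes_of_dim_zero (f : X ⟶ Y) {z : X}
    (h0 : ringKrullDim ((f.fiber (f z)).presheaf.stalk (f.asFiber z)) = 0) (w : X) (hw : w ⤳ z)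
    (hf : f w = f z) : w = z := by
  have : w ∈ Set.range (f.fiberι (f z)) := by rw [Scheme.Hom.range_fiberι]; exact hf
  obtain ⟨w', rfl⟩ := this
  have hsp : w' ⤳ f.asFiber z := by
    refine (f.fiberι (f z)).isEmbedding.isInducing.specializes_iff.mp ?_
    rw [Scheme.Hom.fiberι_asFiber]
    exact hw
  have hc : Order.coheight (f.asFiber z) = 0 := by
    rw [ringKrullDim_stalk_eq_coheight] at h0
    exact_mod_cast h0
  have hmax : IsMax (f.asFiber z) := Order.coheight_eq_zero.1 hc
  have h2 : f.asFiber z ≤ w' := hsp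
  have h3 : w' ≤ f.asFiber z := hmax h2
  have h4 : f.asFiber z ⤳ w' := h3
  have h5 : w' = f.asFiber z := (hsp.antisymm h4).eq
  rw [h5, Scheme.Hom.fiberι_asFiber]

/-- If `z` is maximal in its fibre, then the local dimension of the fibre at `z` is the
transcendence degree of `κ(z)` over `κ(f z)`. -/
theorem exists_fibreDimAt_eq (f : X ⟶ Y) [LocallyOfFiniteType f] {z : X}
    (hz : ∀ w : X, w ⤳ z → f w = f z → w = z) :
    ∃ n : ℕ, rtd f z = n ∧ FlatMor.fibreDimAt f z = n := by
  obtain ⟨n, hn, hn'⟩ := VarietyA.LocDim.le_fibreDimAt f z z (specializes_refl z) rfl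
  refine ⟨n, hn, le_antisymm ?_ hn'⟩
  refine VarietyA.LocDim.fibreDimAt_le f z n fun w hw hfw => ?_
  rw [hz w hw hfw, hn]

/-- There is a maximal point `ζ` specializing to `z` such that the component with generic point `ζ`
has the full dimension at `z`. -/
theorem exists_generic_dim [IsLocallyNoetherian X] (z : X) :
    ∃ (ζ : X) (h : ζ ⤳ z), (∀ w : X, w ⤳ ζ → w = ζ) ∧
      ringKrullDim (X.presheaf.stalk z) ≤ ringKrullDim (Cyc.LocQuot z ζ h) := by
  have hfin : FiniteDimensionalOrder (PrimeSpectrum (X.presheaf.stalk z)) := by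
    infer_instance
  let p : LTSeries (PrimeSpectrum (X.presheaf.stalk z)) := LTSeries.longestOf _
  obtain ⟨q, hq, hqp⟩ := Ideal.exists_minimalPrimes_le (I := ⊥) (J := p.head.asIdeal) bot_le
  have hqprime : q.IsPrime := hq.1.1
  obtain ⟨ζ, hζ, e⟩ := exists_eq_ker q
  refine ⟨ζ, hζ, fun w hw => ?_, ?_⟩
  · have h1 : RingHom.ker (Cyc.specMap z w (hw.trans hζ)) ≤ RingHom.ker (Cyc.specMap z ζ hζ) :=
      (ker_le_iff _ _).2 hw
    have h2 := hq.2 ⟨ker_isPrime (hw.trans hζ), bot_le⟩ (by rw [e]; exact h1)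
    rw [e] at h2
    exact (hw.antisymm ((ker_le_iff _ _).1 h2)).eq
  · rw [ringKrullDim_quotient]
    have h3 : ringKrullDim (X.presheaf.stalk z) = p.length := Order.krullDim_eq_length_of_finiteDimensionalOrder
    rw [h3]
    have hmem : ∀ i, p i ∈ PrimeSpectrum.zeroLocus
        (RingHom.ker (Cyc.specMap z ζ hζ) : Set (X.presheaf.stalk z)) := by
      intro i
      rw [PrimeSpectrum.mem_zeroLocus, SetLike.coe_subset_coe, ← e]
      exact hqp.trans ((PrimeSpectrum.asIdeal_le_asIdeal _ _).2 (p.monotone (Fin.zero_le i)))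
    let r : LTSeries (PrimeSpectrum.zeroLocus
        (RingHom.ker (Cyc.specMap z ζ hζ) : Set (X.presheaf.stalk z))) :=
      { length := p.length
        toFun := fun i => ⟨p i, hmem i⟩
        step := fun i => p.step i }
    exact le_iSup (fun s : LTSeries (PrimeSpectrum.zeroLocus
        (RingHom.ker (Cyc.specMap z ζ hζ) : Set (X.presheaf.stalk z))) =>
          ((s.length : ℕ∞) : WithBot ℕ∞)) r

theorem ringKrullDim_locQuot_le {x ξ : Y} (h : ξ ⤳ x) :
    ringKrullDim (Cyc.LocQuot x ξ h) ≤ ringKrullDim (Y.presheaf.stalk x) :=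
  ringKrullDim_quotient_le _

/-- If `ξ` is the generic point of `Y` then `O_{Y,y}/𝔭_ξ` has the same dimension as `O_{Y,y}`. -/
theorem ringKrullDim_locQuot_generic {y ξ : Y} (hξ : ∀ y' : Y, ξ ⤳ y') :
    ringKrullDim (Cyc.LocQuot y ξ (hξ y)) = ringKrullDim (Y.presheaf.stalk y) := by
  rw [ringKrullDim_quotient]
  have h : PrimeSpectrum.zeroLocus
        (RingHom.ker (Cyc.specMap y ξ (hξ y)) : Set (Y.presheaf.stalk y)) = Set.univ := by
    rw [Set.eq_univ_iff_forall]
    intro P
    rw [mem_zeroLocus_iff, ← primeOf_ptOf P, primeOf_le_iff]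
    exact hξ _
  rw [h]
  exact Order.krullDim_eq_of_orderIso OrderIso.Set.univ

/-- If `ξ` is not the generic point `η` of `Y` then `dim O_{Y,y}/𝔭_ξ + 1 ≤ dim O_{Y,y}`. -/
theorem ringKrullDim_locQuot_add_one_le [IsLocallyNoetherian Y] {y ξ η : Y} (h : ξ ⤳ y)
    (hη : η ⤳ ξ) (hne : η ≠ ξ) :
    ringKrullDim (Cyc.LocQuot y ξ h) + 1 ≤ ringKrullDim (Y.presheaf.stalk y) := by
  have hloc : IsLocalRing (Cyc.LocQuot y ξ h) :=
    IsLocalRing.of_surjective' (Ideal.Quotient.mk _) Ideal.Quotient.mk_surjective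
  have hfin : FiniteDimensionalOrder (PrimeSpectrum (Cyc.LocQuot y ξ h)) := inferInstance
  let p : LTSeries (PrimeSpectrum (Cyc.LocQuot y ξ h)) := LTSeries.longestOf _
  have h3 : ringKrullDim (Cyc.LocQuot y ξ h) = p.length :=
    Order.krullDim_eq_length_of_finiteDimensionalOrder
  let q : LTSeries (PrimeSpectrum (Y.presheaf.stalk y)) :=
    p.map (PrimeSpectrum.comap (Ideal.Quotient.mk (RingHom.ker (Cyc.specMap y ξ h)))) (by
      intro a b hab
      rw [lt_iff_le_and_ne] at hab ⊢
      refine ⟨Ideal.comap_mono hab.1, fun e => hab.2 ?_⟩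
      exact PrimeSpectrum.comap_injective_of_surjective _ Ideal.Quotient.mk_surjective e)
  have hq : primeOf h ≤ q.head := by
    rw [← mem_zeroLocus_iff h, PrimeSpectrum.mem_zeroLocus]
    intro a ha
    change Ideal.Quotient.mk _ a ∈ p.head.asIdeal
    rw [Ideal.Quotient.eq_zero_iff_mem.2 ha]
    exact p.head.asIdeal.zero_mem
  have hlt : primeOf (hη.trans h) < q.head := by
    refine lt_of_lt_of_le (lt_of_le_of_ne ((primeOf_le_iff _ _).2 hη) ?_) hq
    intro e
    exact hne ((primeOf_inj _ _).1 e)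
  have h4 := Order.LTSeries.length_le_krullDim (q.cons _ hlt)
  rw [h3]
  refine le_trans ?_ h4
  rw [RelSeries.cons_length]
  exact_mod_cast le_refl _

end Groth.Agent.Ega4fib.H114.GenComp
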